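import Mathlib
import Cfsg.Agent.LFourA.AltPsiAut

/-!
# Explicit exotic automorphism of `A₆`
-/

set_option autoImplicit false
set_option maxRecDepth 100000

namespace Cfsg.Agent.H600.SixRow

open Equiv Equiv.Perm Subgroup
open Cfsg.Agent.Lib.AltCarmichael Cfsg.Agent.LFourA.AltPsiAut

/-- `(0 1 2)` -/
def pu : Perm (Fin 6) := swap 0 1 * swap 1 2
/-- `(3 4 5)` -/
def pv : Perm (Fin 6) := swap 3 4 * swap 4 5
/-- `(1 2 3 4 5)` -/
def pz : Perm (Fin 6) := swap 1 2 * swap 2 3 * (swap 3 4 * swap 4 5)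
/-- `(0 2 4 1 3)` -/
def py : Perm (Fin 6) := swap 0 2 * swap 2 4 * (swap 4 1 * swap 1 3)

theorem pu_mem : pu ∈ alternatingGroup (Fin 6) := by rw [mem_alternatingGroup]; decide
theorem pv_mem : pv ∈ alternatingGroup (Fin 6) := by rw [mem_alternatingGroup]; decide
theorem pz_mem : pz ∈ alternatingGroup (Fin 6) := by rw [mem_alternatingGroup]; decide
theorem py_mem : py ∈ alternatingGroup (Fin 6) := by rw [mem_alternatingGroup]; decide

/-- `(0 1 2)` -/
def u : A6 := ⟨pu, pu_mem⟩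
/-- `(3 4 5)` -/
def v : A6 := ⟨pv, pv_mem⟩
/-- `(1 2 3 4 5)` -/
def z : A6 := ⟨pz, pz_mem⟩
/-- `(0 2 4 1 3)` -/
def y : A6 := ⟨py, py_mem⟩

/-- the images of the Carmichael generators -/
def xe : ℕ → A6
  | 0 => ⟨swap 0 4 * swap 4 5 * (swap 1 3 * swap 3 2), by rw [Perm.mem_alternatingGroup]; decide⟩
  | 1 => ⟨swap 0 5 * swap 5 1 * (swap 2 3 * swap 3 4), by rw [Perm.mem_alternatingGroup]; decide⟩
  | 2 => ⟨swap 0 2 * swap 2 4 * (swap 1 5 * swap 5 3), by rw [Perm.mem_alternatingGroup]; decide⟩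
  | _ => ⟨swap 0 1 * swap 1 2 * (swap 3 5 * swap 5 4), by rw [Perm.mem_alternatingGroup]; decide⟩

theorem rel_xe : Rel 4 xe where
  cube := by
    intro i hi
    interval_cases i <;> (apply Subtype.ext; decide)
  sq := by
    intro i hi j hj hij
    interval_cases i <;> interval_cases j <;> first | exact absurd rfl hij | (apply Subtype.ext; decide)

/-- **An exotic automorphism normalising `⟨(0 1 2), (3 4 5)⟩`.** -/
theorem exists_eps : ∃ ε : MulAut A6, ε u = u⁻¹ * v⁻¹ ∧ ε v = u * v⁻¹ ∧ ε z = y := by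
  obtain ⟨φ, hφ⟩ := exists_hom (m := 4) (by norm_num) rel_xe
  have hinj : Function.Injective φ := by
    have hs : IsSimpleGroup (alternatingGroup (Fin 6)) := alternatingGroup.isSimpleGroup (by
      rw [Nat.card_eq_fintype_card, Fintype.card_fin]; norm_num)
    rw [← MonoidHom.ker_eq_bot_iff]
    rcases hs.eq_bot_or_eq_top_of_normal φ.ker inferInstance with h | h
    · exact h
    · exfalso
      have h1 : (⟨cyc 4 0, cyc_mem 4 0 (by norm_num)⟩ : alternatingGroup (Fin (4 + 2))) ∈ φ.ker := by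
        rw [h]; trivial
      rw [MonoidHom.mem_ker, hφ 0 (by norm_num)] at h1
      have := congrArg Subtype.val h1
      revert this; decide
  let ε : MulAut A6 := MulEquiv.ofBijective φ ((Finite.injective_iff_bijective).1 hinj)
  have hε : ∀ x, ε x = φ x := fun x => rfl
  have w1 : u = (⟨cyc 4 0, cyc_mem 4 0 (by norm_num)⟩ : A6) * (⟨cyc 4 2, cyc_mem 4 2 (by norm_num)⟩ : A6)⁻¹ *
      ⟨cyc 4 1, cyc_mem 4 1 (by norm_num)⟩ * (⟨cyc 4 0, cyc_mem 4 0 (by norm_num)⟩ : A6)⁻¹ := by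
    apply Subtype.ext; decide
  have w2 : v = (⟨cyc 4 3, cyc_mem 4 3 (by norm_num)⟩ : A6) := by
    apply Subtype.ext; decide
  have w3 : z = (⟨cyc 4 3, cyc_mem 4 3 (by norm_num)⟩ : A6) * (⟨cyc 4 2, cyc_mem 4 2 (by norm_num)⟩ : A6)⁻¹ *
      ⟨cyc 4 1, cyc_mem 4 1 (by norm_num)⟩ := by
    apply Subtype.ext; decide
  refine ⟨ε, ?_, ?_, ?_⟩
  · rw [hε, w1, map_mul, map_mul, map_mul, map_inv, map_inv, hφ 0 (by norm_num), hφ 1 (by norm_num),
      hφ 2 (by norm_num)]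
    apply Subtype.ext; decide +kernel
  · rw [hε, w2, hφ 3 (by norm_num)]
    apply Subtype.ext; decide +kernel
  · rw [hε, w3, map_mul, map_mul, map_inv, hφ 1 (by norm_num), hφ 2 (by norm_num), hφ 3 (by norm_num)]
    apply Subtype.ext; decide +kernel

/-! ### computations -/

/-- even, maps `y` to `z` -/
def ps : Perm (Fin 6) := ⟨![1, 4, 2, 5, 3, 0], ![5, 0, 2, 4, 1, 3], by decide, by decide⟩
/-- odd, maps `y` to `z ^ 2` -/
def pt : Perm (Fin 6) := ⟨![1, 2, 3, 4, 5, 0], ![5, 0, 1, 2, 3, 4], by decide, by decide⟩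

theorem ps_sign : sign ps = 1 := by decide +kernel
theorem pt_sign : sign pt = -1 := by decide +kernel
theorem ps_conj : ps * py * ps⁻¹ = pz := by decide +kernel
theorem pt_conj : pt * py * pt⁻¹ = pz ^ 2 := by decide +kernel

/-- normalises `⟨u, v⟩`: `u ↦ v ↦ u⁻¹` -/
def ph : Perm (Fin 6) := ⟨![3, 4, 5, 1, 0, 2], ![4, 3, 5, 0, 1, 2], by decide, by decide⟩

theorem ph_sign : sign ph = 1 := by decide +kernel
theorem ph_u : ph * pu * ph⁻¹ = pv := by decide +kernel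
theorem ph_v : ph * pv * ph⁻¹ = pu⁻¹ := by decide +kernel

theorem card_six : Nat.card A6 = 360 := by
  rw [nat_card_alternatingGroup, Nat.card_eq_fintype_card, Fintype.card_fin]; decide

/-- the centralizer of `u` -/
theorem cent_u : ∀ σ : Perm (Fin 6), sign σ = 1 → σ * pu = pu * σ → ∃ i j : Fin 3, σ = pu ^ (i : ℕ) * pv ^ (j : ℕ) := by
  decide +kernel

theorem cent_y : ∀ σ : Perm (Fin 6), σ * py = py * σ → ∃ i : Fin 5, σ = py ^ (i : ℕ) := by
  decide +kernel

theorem conj_y : ∀ σ : Perm (Fin 6), σ * (py ^ 2) * σ⁻¹ = py → sign σ = -1 := by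
  decide +kernel

end Cfsg.Agent.H600.SixRow
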