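import Cfsg.Agent.H600.SixRow.Aut
import Cfsg.Agent.H629.T9.Defs

/-!
# Groups with a normal `A₆`: the two extensions with `N(P) / C(P)` of order eight, free
-/

set_option autoImplicit false
set_option maxRecDepth 100000

namespace Cfsg.Agent.H600.SixRow

open Equiv Equiv.Perm Subgroup
open Cfsg.Agent.LFourA.AltPsiAut Cfsg.Agent.H629.T9

universe w

/-- conjugation by a permutation -/
def cn (σ : Perm (Fin 6)) : MulAut A6 := MulAut.conjNormal σ

theorem cn_coe (σ : Perm (Fin 6)) (x : A6) : ((cn σ x : A6) : Perm (Fin 6)) = σ * x * σ⁻¹ :=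
  MulAut.conjNormal_apply σ x

theorem cn_mul (σ τ : Perm (Fin 6)) : cn (σ * τ) = cn σ * cn τ := map_mul _ _ _

theorem exists_cn {α : MulAut A6} (hα : α ∈ NE) : ∃ σ, α = cn σ := by
  obtain ⟨σ, hσ⟩ := exists_perm hα
  exact ⟨σ, MulEquiv.ext fun x => Subtype.ext (by rw [hσ, cn_coe])⟩

variable {G : Type w} [Group G] {S : Subgroup G} [hSn : S.Normal]

/-- the action on `A₆` -/
noncomputable def act (e : S ≃* A6) : G →* MulAut A6 := (MulAut.congr e).toMonoidHom.comp MulAut.conjNormal

theorem act_apply (e : S ≃* A6) (g : G) (x : S) : act e g (e x) = e (MulAut.conjNormal g x) := by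
  show e ((MulAut.conjNormal g : MulAut S) (e.symm (e x))) = _
  rw [e.symm_apply_apply]

theorem act_mem (e : S ≃* A6) (s : S) : act e (s : G) = cn (e s : Perm (Fin 6)) := by
  apply MulEquiv.ext
  intro x
  obtain ⟨x, rfl⟩ := e.surjective x
  rw [act_apply]
  apply Subtype.ext
  rw [cn_coe]
  have h : (MulAut.conjNormal (s : G) : MulAut S) x = s * x * s⁻¹ := by
    apply Subtype.ext
    rw [MulAut.conjNormal_apply]
    rfl
  rw [h, map_mul, map_mul, map_inv]
  rfl

theorem act_inj (e : S ≃* A6) (hC : centralizer (S : Set G) = ⊥) {g h : G} (hgh : act e g = act e h) : g = h := by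
  have h1 : act e (h⁻¹ * g) = 1 := by rw [map_mul, hgh, ← map_mul, inv_mul_cancel, map_one]
  have h2 : h⁻¹ * g ∈ centralizer (S : Set G) := by
    rw [mem_centralizer_iff]
    intro y hy
    have h3 := act_apply e (h⁻¹ * g) ⟨y, hy⟩
    rw [h1, MulAut.one_apply] at h3
    have h4 := congrArg Subtype.val (e.injective h3)
    rw [MulAut.conjNormal_apply] at h4
    have h5 : h⁻¹ * g * y * (h⁻¹ * g)⁻¹ = y := h4.symm
    rw [mul_inv_eq_iff_eq_mul] at h5
    exact h5.symm
  rw [hC, mem_bot] at h2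
  rw [← mul_one h, ← h2]; group

/-- conjugation in `G` through `act` -/
theorem conj_eq (e : S ≃* A6) {g : G} {a b : A6} (h : act e g a = b) :
    g * ((e.symm a : S) : G) * g⁻¹ = ((e.symm b : S) : G) := by
  have h1 := act_apply e g (e.symm a)
  rw [e.apply_symm_apply, h] at h1
  rw [h1, e.symm_apply_apply, MulAut.conjNormal_apply]

theorem act_eq (e : S ≃* A6) {g : G} {a b : A6} (h : g * ((e.symm a : S) : G) * g⁻¹ = ((e.symm b : S) : G)) :
    act e g a = b := by
  have h1 := act_apply e g (e.symm a)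
  rw [e.apply_symm_apply] at h1
  rw [h1]
  have h2 : (MulAut.conjNormal g : MulAut S) (e.symm a) = e.symm b := by
    apply Subtype.ext
    rw [MulAut.conjNormal_apply]
    exact h
  rw [h2, e.apply_symm_apply]

theorem card_cent_u : Nat.card (centralizer ({u} : Set A6)) = 9 := by
  have h := Nat.subtype_card (p := fun x : A6 => x ∈ centralizer ({u} : Set A6))
    (Finset.univ.filter (fun x : A6 => x * u = u * x)) (fun x => by
      rw [Finset.mem_filter, mem_centralizer_singleton_iff]
      simp)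
  refine h.trans ?_
  decide +kernel

/-- alignment of the isomorphism -/
theorem exists_equiv [Finite G] (P : Sylow 3 G) (hP : Nat.card (P : Subgroup G) = 9)
    (e₀ : S ≃* A6) : ∃ e : S ≃* A6, ∀ g : G, g ∈ P ↔ ∃ x : S, (x : G) = g ∧ e x * u = u * e x := by
  have : Fact (Nat.Prime 3) := ⟨Nat.prime_three⟩
  let f : A6 →* G := S.subtype.comp e₀.symm.toMonoidHom
  have hf : Function.Injective f := fun a b h => e₀.symm.injective (Subtype.ext h)
  let Q : Subgroup G := (centralizer ({u} : Set A6)).map f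
  have hQ : Nat.card Q = 9 := by
    rw [← card_cent_u]
    exact (Nat.card_congr ((centralizer ({u} : Set A6)).equivMapOfInjective f hf).toEquiv).symm
  let Q' : Sylow 3 G := Sylow.ofCard Q (by
    rw [hQ, ← hP]
    exact P.card_eq_multiplicity)
  obtain ⟨g, hg⟩ := MulAction.exists_smul_eq G Q' P
  refine ⟨(MulAut.conjNormal g⁻¹ : MulAut S).trans e₀, fun k => ?_⟩
  have h1 : k ∈ P ↔ g⁻¹ * k * g ∈ Q := by
    have h2 : (P : Subgroup G) = (Q' : Subgroup G).map (MulAut.conj g).toMonoidHom := by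
      rw [← hg]; rfl
    show k ∈ (P : Subgroup G) ↔ _
    rw [h2, mem_map]
    constructor
    · rintro ⟨q, hq, rfl⟩
      have h3 : g⁻¹ * (MulAut.conj g).toMonoidHom q * g = q := by
        show g⁻¹ * (g * q * g⁻¹) * g = q
        group
      rw [h3]
      exact hq
    · intro hk
      exact ⟨_, hk, by show g * (g⁻¹ * k * g) * g⁻¹ = k; group⟩
  rw [h1]
  constructor
  · intro hk
    obtain ⟨a, ha, hak⟩ := mem_map.1 hk
    have hak' : ((e₀.symm a : S) : G) = g⁻¹ * k * g := hak
    have hkS : k ∈ S := by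
      have h2 := hSn.conj_mem _ (e₀.symm a).2 g
      rw [hak'] at h2
      have h3 : g * (g⁻¹ * k * g) * g⁻¹ = k := by group
      rwa [h3] at h2
    refine ⟨⟨k, hkS⟩, rfl, ?_⟩
    have h4 : ((MulAut.conjNormal g⁻¹ : MulAut S).trans e₀) ⟨k, hkS⟩ = a := by
      show e₀ ((MulAut.conjNormal g⁻¹ : MulAut S) ⟨k, hkS⟩) = a
      rw [← e₀.apply_symm_apply a]
      congr 1
      apply Subtype.ext
      rw [MulAut.conjNormal_apply, inv_inv, hak']
    rw [h4]
    exact mem_centralizer_singleton_iff.1 ha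
  · rintro ⟨x, rfl, hx⟩
    refine mem_map.2 ⟨_, mem_centralizer_singleton_iff.2 hx, ?_⟩
    show ((e₀.symm (e₀ ((MulAut.conjNormal g⁻¹ : MulAut S) x)) : S) : G) = _
    rw [e₀.symm_apply_apply, MulAut.conjNormal_apply, inv_inv]

end Cfsg.Agent.H600.SixRow
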