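import Cfsg.Agent.H600.SixRow.Grp

/-!
# Groups with a normal `A₆`: structure in the case `N(P) / C(P)` of order eight, free
-/

set_option autoImplicit false
set_option maxRecDepth 100000

namespace Cfsg.Agent.H600.SixRow

open Equiv Equiv.Perm Subgroup
open Cfsg.Agent.LFourA.AltPsiAut Cfsg.Agent.H629.T9

universe w

variable {G : Type w} [Group G] {S : Subgroup G} [hSn : S.Normal] {P : Subgroup G} {e : S ≃* A6}

/-- the situation, aligned -/
structure Al (S : Subgroup G) (P : Subgroup G) (e : S ≃* A6) : Prop where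
  cent : centralizer (S : Set G) = ⊥
  mem : ∀ g : G, g ∈ P ↔ ∃ x : S, (x : G) = g ∧ e x * u = u * e x
  free : Free8 P

/-- the element of `G` for an element of `A₆` -/
noncomputable def el (e : S ≃* A6) (a : A6) : G := ((e.symm a : S) : G)

omit hSn in
theorem el_mul (a b : A6) : el e (a * b) = el e a * el e b := by
  unfold el; rw [map_mul]; rfl

omit hSn in
theorem el_inv (a : A6) : el e a⁻¹ = (el e a)⁻¹ := by
  unfold el; rw [map_inv]; rfl

omit hSn in
theorem el_pow (a : A6) (n : ℕ) : el e (a ^ n) = (el e a) ^ n := by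
  unfold el; rw [map_pow]; rfl

omit hSn in
theorem el_one : el e 1 = 1 := by
  unfold el; rw [map_one]; rfl

omit hSn in
theorem el_inj {a b : A6} (h : el e a = el e b) : a = b := e.symm.injective (Subtype.ext h)

omit hSn in
theorem el_mem (a : A6) : el e a ∈ S := (e.symm a).2

theorem act_el (a : A6) : act e (el e a) = cn (a : Perm (Fin 6)) := by
  have h := act_mem e (e.symm a)
  rw [e.apply_symm_apply] at h
  exact h

theorem conj_el {g : G} {a b : A6} (h : act e g a = b) : g * el e a * g⁻¹ = el e b := conj_eq e h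

theorem act_of {g : G} {a b : A6} (h : g * el e a * g⁻¹ = el e b) : act e g a = b := act_eq e h

namespace Al

omit hSn in
theorem mem_iff (A : Al S P e) (a : A6) : el e a ∈ P ↔ a * u = u * a := by
  rw [A.mem]
  constructor
  · rintro ⟨x, hx, h⟩
    have h1 : x = e.symm a := Subtype.ext hx
    rw [h1, e.apply_symm_apply] at h
    exact h
  · intro h
    exact ⟨e.symm a, rfl, by rw [e.apply_symm_apply]; exact h⟩

omit hSn in
theorem exists_el (A : Al S P e) {g : G} (hg : g ∈ P) : ∃ a : A6, g = el e a ∧ a * u = u * a := by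
  obtain ⟨x, rfl, h⟩ := (A.mem g).1 hg
  exact ⟨e x, by unfold el; rw [e.symm_apply_apply], h⟩

omit hSn in
theorem exists_el_S {g : G} (hg : g ∈ S) : ∃ a : A6, g = el e a :=
  ⟨e ⟨g, hg⟩, by unfold el; rw [e.symm_apply_apply]⟩

theorem comm_P : ∀ a b : A6, a * u = u * a → b * u = u * b → a * b = b * a := by
  intro a b ha hb
  have huv : Commute pu pv := by show pu * pv = pv * pu; decide
  obtain ⟨i, j, h1⟩ := cent_u a (Perm.mem_alternatingGroup.1 a.2) (congrArg Subtype.val ha)
  obtain ⟨k, l, h2⟩ := cent_u b (Perm.mem_alternatingGroup.1 b.2) (congrArg Subtype.val hb)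
  apply Subtype.ext
  show (a : Perm (Fin 6)) * (b : Perm (Fin 6)) = b * a
  rw [h1, h2]
  have c1 : Commute (pu ^ (i : ℕ) * pv ^ (j : ℕ)) (pu ^ (k : ℕ) * pv ^ (l : ℕ)) := by
    refine Commute.mul_left (Commute.mul_right ?_ ?_) (Commute.mul_right ?_ ?_)
    · exact (Commute.refl pu).pow_pow _ _
    · exact huv.pow_pow _ _
    · exact huv.symm.pow_pow _ _
    · exact (Commute.refl pv).pow_pow _ _
  exact c1.eq

omit hSn in
theorem P_le (A : Al S P e) : P ≤ centralizer (P : Set G) := by
  intro g hg
  rw [mem_centralizer_iff]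
  intro h hh
  obtain ⟨a, rfl, ha⟩ := A.exists_el hg
  obtain ⟨b, rfl, hb⟩ := A.exists_el hh
  rw [← el_mul, ← el_mul, comm_P b a hb ha]

/-- odd permutations are not induced -/
theorem inS (A : Al S P e) {n : G} (hn : act e n ∈ NE) : n ∈ S := by
  obtain ⟨σ, hσ⟩ := exists_cn hn
  rcases Int.units_eq_one_or (sign σ) with h | h
  · have h1 : act e (el e ⟨σ, mem_alternatingGroup.2 h⟩) = act e n := by rw [act_el, hσ]
    rw [← act_inj e A.cent h1]
    exact el_mem _
  · exfalso
    have h1 : swap 3 4 * σ⁻¹ ∈ alternatingGroup (Fin 6) := by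
      rw [mem_alternatingGroup, map_mul, map_inv, h, sign_swap (by decide)]
      decide
    obtain ⟨m, hm⟩ : ∃ m : G, m = el e ⟨swap 3 4 * σ⁻¹, h1⟩ * n := ⟨_, rfl⟩
    have h2 : act e m = cn (swap 3 4) := by
      rw [hm, map_mul, act_el, hσ, ← cn_mul]
      show cn (swap 3 4 * σ⁻¹ * σ) = _
      rw [inv_mul_cancel_right]
    have h3 : m * el e u * m⁻¹ = el e u := conj_el (by
      rw [h2]; apply Subtype.ext; rw [cn_coe]; show swap 3 4 * pu * (swap 3 4)⁻¹ = pu; decide +kernel)
    have h4 : m * el e v * m⁻¹ = el e v⁻¹ := conj_el (by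
      rw [h2]; apply Subtype.ext; rw [cn_coe]; show swap 3 4 * pv * (swap 3 4)⁻¹ = pv⁻¹; decide +kernel)
    have hu : el e u ∈ P := (A.mem_iff u).2 rfl
    have hv : el e v ∈ P := (A.mem_iff v).2 (by apply Subtype.ext; show pv * pu = pu * pv; decide)
    have hnorm : m ∈ normalizer (P : Set G) := by
      rw [mem_normalizer_iff]
      have key : ∀ x ∈ P, m * x * m⁻¹ ∈ P := by
        intro x hx
        obtain ⟨a, rfl, ha⟩ := A.exists_el hx
        obtain ⟨b, hb⟩ : ∃ b, act e m a = b := ⟨_, rfl⟩
        rw [conj_el hb, A.mem_iff, ← hb]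
        have h5 := congrArg (act e m) ha
        have h6 : act e m u = u := act_of h3
        rw [map_mul, map_mul, h6] at h5
        exact h5
      have h3' : m⁻¹ * el e u * (m⁻¹)⁻¹ = el e u := by
        rw [inv_inv]
        calc m⁻¹ * el e u * m = m⁻¹ * (m * el e u * m⁻¹) * m := by rw [h3]
          _ = el e u := by group
      have key' : ∀ x ∈ P, m⁻¹ * x * (m⁻¹)⁻¹ ∈ P := by
        intro x hx
        obtain ⟨a, rfl, ha⟩ := A.exists_el hx
        obtain ⟨b, hb⟩ : ∃ b, act e m⁻¹ a = b := ⟨_, rfl⟩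
        rw [conj_el hb, A.mem_iff, ← hb]
        have h5 := congrArg (act e m⁻¹) ha
        have h6 : act e m⁻¹ u = u := act_of h3'
        rw [map_mul, map_mul, h6] at h5
        exact h5
      intro x
      constructor
      · exact key x
      · intro hx
        have := key' _ hx
        have h7 : m⁻¹ * (m * x * m⁻¹) * (m⁻¹)⁻¹ = x := by group
        rwa [h7] at this
    have hnc : m ∉ centralizer (P : Set G) := by
      intro hc
      have h5 := mem_centralizer_iff.1 hc _ hv
      have h6 : m * el e v * m⁻¹ = el e v := by rw [← h5]; group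
      rw [h4] at h6
      have h7 := congrArg Subtype.val (el_inj h6)
      have h8 : pv⁻¹ = pv := h7
      revert h8; decide
    have hu1 : el e u ≠ 1 := by
      intro h5
      rw [← el_one (e := e)] at h5
      have h7 : pu = 1 := congrArg Subtype.val (el_inj h5)
      revert h7; decide
    exact A.free.free m hnorm hnc _ hu hu1 h3

omit hSn in
/-- `N(P)` is transitive on `P \ {1}` -/
theorem trans (A : Al S P e) [Finite G] {x : G} (hx : x ∈ P) (hx1 : x ≠ 1) :
    ∃ h ∈ normalizer (P : Set G), h * el e u * h⁻¹ = x := by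
  classical
  have hu : el e u ∈ P := (A.mem_iff u).2 rfl
  have hu1 : el e u ≠ 1 := by
    intro h5
    rw [← el_one (e := e)] at h5
    have h7 : pu = 1 := congrArg Subtype.val (el_inj h5)
    revert h7; decide
  set H := normalizer (P : Set G) with hH
  set K := centralizer (P : Set G) with hK
  let T : Set G := (P : Set G) \ {1}
  have hT : Nat.card T = 8 := by
    rw [Nat.card_coe_set_eq, Set.ncard_sdiff_singleton_of_mem (by exact P.one_mem), ← Nat.card_coe_set_eq]
    have := A.free.card
    show Nat.card P - 1 = 8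
    omega
  have hQ : Nat.card (H ⧸ K.subgroupOf H) = 8 := A.free.ind
  let F : H ⧸ K.subgroupOf H → T := fun q => ⟨(q.out : G) * el e u * (q.out : G)⁻¹,
    (mem_normalizer_iff.1 q.out.2 _).1 hu, fun h => hu1 (by
      have h1 : (q.out : G) * el e u * (q.out : G)⁻¹ = 1 := h
      rwa [mul_inv_eq_one, mul_eq_left] at h1)⟩
  have hF : Function.Injective F := by
    intro q q' hqq
    have h1 : (q.out : G) * el e u * (q.out : G)⁻¹ = (q'.out : G) * el e u * (q'.out : G)⁻¹ :=
      congrArg Subtype.val hqq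
    have h2 : ((q.out⁻¹ * q'.out : H) : G) ∈ K := by
      by_contra hcon
      refine A.free.free _ (q.out⁻¹ * q'.out : H).2 hcon _ hu hu1 ?_
      show (q.out : G)⁻¹ * (q'.out : G) * el e u * ((q.out : G)⁻¹ * (q'.out : G))⁻¹ = el e u
      calc (q.out : G)⁻¹ * (q'.out : G) * el e u * ((q.out : G)⁻¹ * (q'.out : G))⁻¹
          = (q.out : G)⁻¹ * ((q'.out : G) * el e u * (q'.out : G)⁻¹) * (q.out : G) := by group
        _ = (q.out : G)⁻¹ * ((q.out : G) * el e u * (q.out : G)⁻¹) * (q.out : G) := by rw [h1]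
        _ = el e u := by group
    have h3 : (QuotientGroup.mk q.out : H ⧸ K.subgroupOf H) = QuotientGroup.mk q'.out := by
      rw [QuotientGroup.eq]
      exact mem_subgroupOf.2 h2
    rwa [QuotientGroup.out_eq', QuotientGroup.out_eq'] at h3
  have : Finite (H ⧸ K.subgroupOf H) := Quotient.finite _
  have hFs : Function.Surjective F := by
    have hfT : Finite T := inferInstance
    exact ((Nat.bijective_iff_injective_and_card F).2 ⟨hF, by rw [hQ, hT]⟩).2
  obtain ⟨q, hq⟩ := hFs ⟨x, hx, hx1⟩
  exact ⟨q.out, q.out.2, congrArg Subtype.val hq⟩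

end Al

end Cfsg.Agent.H600.SixRow
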