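import Cfsg.Agent.H600.SixRow.Grp2

/-!
# Groups with a normal `A₆`: `PGL₂(9)` and `M₁₀`
-/

set_option autoImplicit false
set_option maxRecDepth 100000

namespace Cfsg.Agent.H600.SixRow

open Equiv Equiv.Perm Subgroup
open Cfsg.Agent.LFourA.AltPsiAut Cfsg.Agent.H629.T9

universe w

variable {G : Type w} [Group G] {S : Subgroup G} [hSn : S.Normal] {P : Subgroup G} {e : S ≃* A6}

theorem u_three : (u : Perm (Fin 6)).IsThreeCycle := u3_three

theorem cn_mem_NE (σ : Perm (Fin 6)) : cn σ ∈ NE := by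
  rw [mem_NE_iff, cn_coe]
  exact isThreeCycle_conj.2 u3_three

theorem three_of_NE {α : MulAut A6} (h : α ∈ NE) : (α u : Perm (Fin 6)).support.card = 3 :=
  (h u u_three).card_support

namespace Al

theorem not_mem_S {g : G} (hg : act e g ∉ NE) : g ∉ S := by
  intro h
  obtain ⟨a, rfl⟩ := exists_el_S (e := e) h
  exact hg (by rw [act_el]; exact cn_mem_NE _)

theorem out (A : Al S P e) [Finite G] : ∃ g, act e g ∉ NE := by
  have h1 : el e (u * v) ∈ P := (A.mem_iff _).2 (by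
    apply Subtype.ext; show pu * pv * pu = pu * (pu * pv); decide)
  have h2 : el e (u * v) ≠ 1 := by
    intro h5
    rw [← el_one (e := e)] at h5
    have h7 : pu * pv = 1 := congrArg Subtype.val (el_inj h5)
    revert h7; decide
  obtain ⟨h, -, hh⟩ := A.trans h1 h2
  refine ⟨h, fun hNE => ?_⟩
  have h3 := three_of_NE hNE
  rw [act_of hh] at h3
  have h4 : (pu * pv).support.card = 3 := h3
  revert h4; decide

theorem index (A : Al S P e) [Finite G] : S.index = 2 := by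
  obtain ⟨g, hg⟩ := A.out
  rw [index_eq_two_iff_exists_notMem_and']
  refine ⟨g⁻¹, fun h => not_mem_S hg (by rwa [inv_mem_iff] at h), fun b => ?_⟩
  by_cases hb : act e b ∈ NE
  · exact Or.inr (A.inS hb)
  · left
    apply A.inS
    rw [map_mul, map_inv]
    exact inv_mul_mem hg hb

theorem card (A : Al S P e) [Finite G] : Nat.card G = 720 := by
  rw [← S.card_mul_index, A.index, Nat.card_congr e.toEquiv, card_six]

theorem cent_U (A : Al S P e) {g : G} (hg : g * el e u = el e u * g) : g ∈ P := by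
  have h1 : g * el e u * g⁻¹ = el e u := by rw [hg]; group
  have h2 : act e g ∈ NE := by
    rw [mem_NE_iff]
    have : act e g u3 = u := act_of h1
    rw [this]
    exact u_three
  obtain ⟨a, rfl⟩ := exists_el_S (e := e) (A.inS h2)
  rw [A.mem_iff]
  rw [← el_mul, ← el_mul] at hg
  exact el_inj hg

theorem card_cent_U (A : Al S P e) : Nat.card (centralizer ({el e u} : Set G)) = 9 := by
  rw [← A.free.card]
  congr 2
  ext g
  rw [mem_centralizer_singleton_iff]
  refine ⟨fun h => A.cent_U h, fun h => ?_⟩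
  exact (mem_centralizer_iff.1 (A.P_le h) _ ((A.mem_iff u).2 rfl)).symm

/-- the two types -/
theorem cases (A : Al S P e) [Finite G] {ε : MulAut A6} (hε : ε ∉ NE) :
    (∀ σ, sign σ = 1 → ∃ g : G, act e g = ε * cn σ) ∨ (∀ σ, sign σ = -1 → ∃ g : G, act e g = ε * cn σ) := by
  obtain ⟨g, hg⟩ := A.out
  obtain ⟨τ, hτ⟩ := exists_cn (inv_mul_mem hε hg)
  have h1 : act e g = ε * cn τ := by rw [← hτ, mul_inv_cancel_left]
  have key : ∀ σ, sign σ = sign τ → ∃ g : G, act e g = ε * cn σ := by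
    intro σ hσ
    have h2 : τ⁻¹ * σ ∈ alternatingGroup (Fin 6) := by
      rw [mem_alternatingGroup, map_mul, map_inv, hσ, inv_mul_cancel]
    refine ⟨g * el e ⟨τ⁻¹ * σ, h2⟩, ?_⟩
    rw [map_mul, h1, act_el, mul_assoc, ← cn_mul]
    show ε * cn (τ * (τ⁻¹ * σ)) = _
    rw [mul_inv_cancel_left]
  rcases Int.units_eq_one_or (sign τ) with h | h
  · left
    intro σ hσ
    exact key σ (by rw [hσ, h])
  · right
    intro σ hσ
    exact key σ (by rw [hσ, h])

end Al

/-- `g` normalises `P` -/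
theorem mem_norm [Finite G] {g : G} (h : ∀ x ∈ P, g * x * g⁻¹ ∈ P) : g ∈ normalizer (P : Set G) := by
  rw [mem_normalizer_iff_map_conj_eq]
  apply Subgroup.eq_of_le_of_card_ge
  · rintro _ ⟨x, hx, rfl⟩
    exact h x hx
  · exact (Nat.card_congr (P.equivMapOfInjective ((MulAut.conj g : MulAut G) : G →* G) (MulAut.conj g).injective).toEquiv).le

theorem cent_form : ∀ σ : Perm (Fin 6), sign σ = 1 → σ * pu = pu * σ → σ ≠ 1 →
    σ = pu ∨ σ = pu⁻¹ * pv⁻¹ ∨ σ = pv⁻¹ ∨ σ = pu⁻¹ * pv ∨ σ = pu⁻¹ ∨ σ = pu * pv ∨ σ = pv ∨ σ = pu * pv⁻¹ := by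
  decide +kernel

/-- the orbit of `u` under `ε` -/
theorem orbit_eps {ε : MulAut A6} (hu : ε u = u⁻¹ * v⁻¹) (hv : ε v = u * v⁻¹) {a : A6} (ha : a * u = u * a)
    (ha1 : a ≠ 1) : ∃ k : ℕ, (ε ^ k) u = a := by
  have e1 : (ε ^ 1) u = u⁻¹ * v⁻¹ := by rw [pow_one, hu]
  have e2 : (ε ^ 2) u = v⁻¹ := by
    rw [pow_succ', MulAut.mul_apply, e1, map_mul, map_inv, map_inv, hu, hv]
    apply Subtype.ext; show (pu⁻¹ * pv⁻¹)⁻¹ * (pu * pv⁻¹)⁻¹ = pv⁻¹; decide
  have e3 : (ε ^ 3) u = u⁻¹ * v := by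
    rw [pow_succ', MulAut.mul_apply, e2, map_inv, hv]
    apply Subtype.ext; show (pu * pv⁻¹)⁻¹ = pu⁻¹ * pv; decide
  have e4 : (ε ^ 4) u = u⁻¹ := by
    rw [pow_succ', MulAut.mul_apply, e3, map_mul, map_inv, hu, hv]
    apply Subtype.ext; show (pu⁻¹ * pv⁻¹)⁻¹ * (pu * pv⁻¹) = pu⁻¹; decide
  have e5 : (ε ^ 5) u = u * v := by
    rw [pow_succ', MulAut.mul_apply, e4, map_inv, hu]
    apply Subtype.ext; show (pu⁻¹ * pv⁻¹)⁻¹ = pu * pv; decide
  have e6 : (ε ^ 6) u = v := by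
    rw [pow_succ', MulAut.mul_apply, e5, map_mul, hu, hv]
    apply Subtype.ext; show (pu⁻¹ * pv⁻¹) * (pu * pv⁻¹) = pv; decide
  have e7 : (ε ^ 7) u = u * v⁻¹ := by
    rw [pow_succ', MulAut.mul_apply, e6, hv]
  have e0 : (ε ^ 0) u = u := by rw [pow_zero]; rfl
  have h1 : (a : Perm (Fin 6)) ≠ 1 := fun h => ha1 (Subtype.ext h)
  rcases cent_form a (mem_alternatingGroup.1 a.2) (congrArg Subtype.val ha) h1 with h | h | h | h | h | h | h | h
  · exact ⟨0, by rw [e0]; exact Subtype.ext h.symm⟩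
  · exact ⟨1, by rw [e1]; exact Subtype.ext h.symm⟩
  · exact ⟨2, by rw [e2]; exact Subtype.ext h.symm⟩
  · exact ⟨3, by rw [e3]; exact Subtype.ext h.symm⟩
  · exact ⟨4, by rw [e4]; exact Subtype.ext h.symm⟩
  · exact ⟨5, by rw [e5]; exact Subtype.ext h.symm⟩
  · exact ⟨6, by rw [e6]; exact Subtype.ext h.symm⟩
  · exact ⟨7, by rw [e7]; exact Subtype.ext h.symm⟩

/-- membership in `P` for images of the generators suffices -/
theorem norm_of (A : Al S P e) [Finite G] {g : G} (hu : el e (act e g u) ∈ P) (hv : el e (act e g v) ∈ P) :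
    g ∈ normalizer (P : Set G) := by
  apply mem_norm
  intro x hx
  obtain ⟨a, rfl, ha⟩ := A.exists_el hx
  obtain ⟨i, j, h1⟩ := cent_u a (mem_alternatingGroup.1 a.2) (congrArg Subtype.val ha)
  have h2 : a = u ^ (i : ℕ) * v ^ (j : ℕ) := Subtype.ext h1
  rw [conj_el (b := act e g a) rfl, h2, map_mul, map_pow, map_pow, el_mul, el_pow, el_pow]
  exact P.mul_mem (P.pow_mem hu _) (P.pow_mem hv _)

/-- **`PGL₂(9)`: `N(P) / C(P)` is cyclic.** -/
theorem cyc_of_pgl (A : Al S P e) [Finite G] {ε : MulAut A6} (hu : ε u = u⁻¹ * v⁻¹) (hv : ε v = u * v⁻¹)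
    {g : G} (hg : act e g = ε) : CycE P := by
  have hgn : g ∈ normalizer (P : Set G) := by
    apply norm_of A
    · rw [hg, hu, A.mem_iff]; apply Subtype.ext; show pu⁻¹ * pv⁻¹ * pu = pu * (pu⁻¹ * pv⁻¹); decide
    · rw [hg, hv, A.mem_iff]; apply Subtype.ext; show pu * pv⁻¹ * pu = pu * (pu * pv⁻¹); decide
  refine ⟨g, hgn, fun h hh => ?_⟩
  have hU : el e u ∈ P := (A.mem_iff u).2 rfl
  have h1 : h * el e u * h⁻¹ ∈ P := (mem_normalizer_iff.1 hh _).1 hU
  obtain ⟨a, h2, ha⟩ := A.exists_el h1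
  have ha1 : a ≠ 1 := by
    rintro rfl
    rw [el_one, mul_inv_eq_one, mul_eq_left, ← el_one (e := e)] at h2
    have h7 : pu = 1 := congrArg Subtype.val (el_inj h2)
    revert h7; decide
  obtain ⟨k, hk⟩ := orbit_eps hu hv ha ha1
  refine ⟨k, (g ^ k)⁻¹ * h, A.P_le (A.cent_U ?_), by group⟩
  have h3 : g ^ k * el e u * (g ^ k)⁻¹ = el e a := conj_el (by rw [map_pow, hg, hk])
  rw [← h3] at h2
  calc (g ^ k)⁻¹ * h * el e u = (g ^ k)⁻¹ * (h * el e u * h⁻¹) * h := by group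
    _ = (g ^ k)⁻¹ * (g ^ k * el e u * (g ^ k)⁻¹) * h := by rw [h2]
    _ = el e u * ((g ^ k)⁻¹ * h) := by group

/-- elements of a group with cyclic `N(P) / C(P)` commute on `P` -/
theorem comm_of_cyc {P : Subgroup G} (h : CycE P) {a b x : G} (ha : a ∈ normalizer (P : Set G))
    (hb : b ∈ normalizer (P : Set G)) (hx : x ∈ P) : (a * b) * x * (a * b)⁻¹ = (b * a) * x * (b * a)⁻¹ := by
  obtain ⟨g, hg, hgen⟩ := h
  obtain ⟨i, c, hc, rfl⟩ := hgen a ha
  obtain ⟨j, d, hd, rfl⟩ := hgen b hb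
  have hcen : ∀ c ∈ centralizer (P : Set G), ∀ y ∈ P, c * y * c⁻¹ = y := by
    intro c hc y hy
    rw [← mem_centralizer_iff.1 hc y hy]; group
  have hpow : ∀ k : ℕ, ∀ y ∈ P, g ^ k * y * (g ^ k)⁻¹ ∈ P := by
    intro k y hy
    exact (mem_normalizer_iff.1 (pow_mem hg k) y).1 hy
  have key : ∀ (i j : ℕ) (c d : G), c ∈ centralizer (P : Set G) → d ∈ centralizer (P : Set G) →
      (g ^ i * c * (g ^ j * d)) * x * (g ^ i * c * (g ^ j * d))⁻¹ = g ^ (i + j) * x * (g ^ (i + j))⁻¹ := by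
    intro i j c d hc hd
    calc (g ^ i * c * (g ^ j * d)) * x * (g ^ i * c * (g ^ j * d))⁻¹
        = g ^ i * (c * (g ^ j * (d * x * d⁻¹) * (g ^ j)⁻¹) * c⁻¹) * (g ^ i)⁻¹ := by group
      _ = g ^ i * (c * (g ^ j * x * (g ^ j)⁻¹) * c⁻¹) * (g ^ i)⁻¹ := by rw [hcen d hd x hx]
      _ = g ^ i * (g ^ j * x * (g ^ j)⁻¹) * (g ^ i)⁻¹ := by rw [hcen c hc _ (hpow j x hx)]
      _ = g ^ (i + j) * x * (g ^ (i + j))⁻¹ := by rw [pow_add]; group
  rw [key i j c d hc hd, key j i d c hd hc, add_comm]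

/-- **`M₁₀`: `N(P) / C(P)` is not cyclic.** -/
theorem not_cyc_of_m10 (A : Al S P e) [Finite G] {ε : MulAut A6} (hu : ε u = u⁻¹ * v⁻¹) (hv : ε v = u * v⁻¹)
    {g : G} (hg : act e g = ε * cn (swap 0 1)) : ¬ CycE P := by
  intro hcyc
  have c1 : cn (swap 0 1) u = u⁻¹ := by
    apply Subtype.ext; rw [cn_coe]; show swap 0 1 * pu * (swap 0 1)⁻¹ = pu⁻¹; decide
  have c2 : cn (swap 0 1) v = v := by
    apply Subtype.ext; rw [cn_coe]; show swap 0 1 * pv * (swap 0 1)⁻¹ = pv; decide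
  have a1 : act e g u = u * v := by
    rw [hg, MulAut.mul_apply, c1, map_inv, hu]
    apply Subtype.ext; show (pu⁻¹ * pv⁻¹)⁻¹ = pu * pv; decide
  have a2 : act e g v = u * v⁻¹ := by rw [hg, MulAut.mul_apply, c2, hv]
  have hgn : g ∈ normalizer (P : Set G) := by
    apply norm_of A
    · rw [a1, A.mem_iff]; apply Subtype.ext; show pu * pv * pu = pu * (pu * pv); decide
    · rw [a2, A.mem_iff]; apply Subtype.ext; show pu * pv⁻¹ * pu = pu * (pu * pv⁻¹); decide
  set h : A6 := ⟨ph, mem_alternatingGroup.2 ph_sign⟩ with hh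
  have b1 : act e (el e h) u = v := by
    rw [act_el]; apply Subtype.ext; rw [cn_coe]; exact ph_u
  have b2 : act e (el e h) v = u⁻¹ := by
    rw [act_el]; apply Subtype.ext; rw [cn_coe]; exact ph_v
  have hhn : el e h ∈ normalizer (P : Set G) := by
    apply norm_of A
    · rw [b1, A.mem_iff]; apply Subtype.ext; show pv * pu = pu * pv; decide
    · rw [b2, A.mem_iff]; apply Subtype.ext; show pu⁻¹ * pu = pu * pu⁻¹; decide
  have h1 := comm_of_cyc hcyc hgn hhn ((A.mem_iff u).2 rfl)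
  have h2 : act e (g * el e h) u = u * v⁻¹ := by rw [map_mul, MulAut.mul_apply, b1, a2]
  have h3 : act e (el e h * g) u = v * u⁻¹ := by
    rw [map_mul, MulAut.mul_apply, a1, map_mul, b1, b2]
  rw [conj_el h2, conj_el h3] at h1
  have h4 : pu * pv⁻¹ = pv * pu⁻¹ := congrArg Subtype.val (el_inj h1)
  revert h4; decide

/-! ### elements of order five -/

theorem card_cent_y : Nat.card (centralizer ({y} : Set A6)) = 5 := by
  have h := Nat.subtype_card (p := fun x : A6 => x ∈ centralizer ({y} : Set A6))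
    (Finset.univ.filter (fun x : A6 => x * y = y * x)) (fun x => by
      rw [Finset.mem_filter, mem_centralizer_singleton_iff]
      simp)
  refine h.trans ?_
  decide +kernel

omit hSn in
theorem card_inf : Nat.card (centralizer ({el e y} : Set G) ⊓ S : Subgroup G) = 5 := by
  rw [← card_cent_y]
  let f : A6 →* G := S.subtype.comp e.symm.toMonoidHom
  have hf : Function.Injective f := fun a b h => e.symm.injective (Subtype.ext h)
  have h1 : (centralizer ({el e y} : Set G) ⊓ S : Subgroup G) = (centralizer ({y} : Set A6)).map f := by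
    ext g
    rw [mem_inf, mem_centralizer_singleton_iff, mem_map]
    constructor
    · rintro ⟨h1, h2⟩
      obtain ⟨a, rfl⟩ := Al.exists_el_S (e := e) h2
      refine ⟨a, ?_, rfl⟩
      rw [← el_mul, ← el_mul] at h1
      exact mem_centralizer_singleton_iff.2 (el_inj h1)
    · rintro ⟨a, ha, rfl⟩
      refine ⟨?_, el_mem a⟩
      show el e a * el e y = el e y * el e a
      rw [← el_mul, ← el_mul, mem_centralizer_singleton_iff.1 ha]
  rw [h1]
  exact (Nat.card_congr ((centralizer ({y} : Set A6)).equivMapOfInjective f hf).toEquiv).symm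

/-- `PGL₂(9)` -/
theorem card_cent_pgl (A : Al S P e) [Finite G] {g : G} (hg : act e g y = y) (hgN : act e g ∉ NE) :
    Nat.card (centralizer ({el e y} : Set G)) = 10 := by
  have hgS : g ∉ S := Al.not_mem_S hgN
  have hgc : g ∈ centralizer ({el e y} : Set G) := by
    rw [mem_centralizer_singleton_iff]
    have := conj_el hg
    rwa [mul_inv_eq_iff_eq_mul] at this
  have h1 : (centralizer ({el e y} : Set G) ⊓ S : Subgroup G).relIndex (centralizer ({el e y} : Set G)) = 2 := by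
    rw [relIndex_eq_two_iff_exists_notMem_and]
    refine ⟨g, hgc, fun h => hgS (mem_inf.1 h).2, fun b hb => ?_⟩
    by_cases hbS : b ∈ S
    · exact Or.inr (mem_inf.2 ⟨hb, hbS⟩)
    · left
      refine mem_inf.2 ⟨mul_mem hb hgc, ?_⟩
      rw [mul_mem_iff_of_index_two A.index]
      tauto
  have h2 := ((centralizer ({el e y} : Set G) ⊓ S : Subgroup G).subgroupOf
    (centralizer ({el e y} : Set G))).card_mul_index
  rw [Nat.card_congr (subgroupOfEquivOfLe inf_le_left).toEquiv, card_inf] at h2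
  have h3 : ((centralizer ({el e y} : Set G) ⊓ S : Subgroup G).subgroupOf
    (centralizer ({el e y} : Set G))).index = 2 := h1
  rw [h3] at h2
  exact h2.symm

/-- `M₁₀` -/
theorem card_cent_m10 (A : Al S P e) [Finite G] {g : G} (hg : act e g y = y ^ 2) (hgN : act e g ∉ NE) :
    Nat.card (centralizer ({el e y} : Set G)) = 5 := by
  have hgS : g ∉ S := Al.not_mem_S hgN
  rw [← card_inf (S := S) (e := e)]
  congr 2
  refine le_antisymm (le_inf le_rfl fun c hc => ?_) inf_le_left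
  by_contra hcS
  have hcS' : c * g⁻¹ ∈ S := by
    rw [mul_mem_iff_of_index_two A.index, inv_mem_iff]
    tauto
  obtain ⟨a, ha⟩ := Al.exists_el_S (e := e) hcS'
  have h1 := conj_el hg
  have h2 : c * el e y * c⁻¹ = el e y := by
    rw [mem_centralizer_singleton_iff.1 hc]; group
  have h3 : el e a * el e (y ^ 2) * (el e a)⁻¹ = el e y := by
    rw [← ha, ← h1]
    calc c * g⁻¹ * (g * el e y * g⁻¹) * (c * g⁻¹)⁻¹ = c * el e y * c⁻¹ := by group
      _ = el e y := h2
  rw [← el_inv, ← el_mul, ← el_mul] at h3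
  have h4 : (a : Perm (Fin 6)) * py ^ 2 * (a : Perm (Fin 6))⁻¹ = py := congrArg Subtype.val (el_inj h3)
  have h5 := conj_y _ h4
  rw [mem_alternatingGroup.1 a.2] at h5
  revert h5; decide

end Cfsg.Agent.H600.SixRow
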