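import Mathlib

/-!
# The degrees of `PGL₂(9)` and `M₁₀`: arithmetic
-/

set_option autoImplicit false

namespace Cfsg.Agent.H600.SixRow

/-- the degrees -/
def Ks : Finset ℕ := {1, 8, 9, 10, 16, 18, 20}

/-- the value at the element of order three -/
def wt : ℕ → ℤ
  | 1 => 1
  | 8 => -1
  | 10 => 1
  | 16 => -2
  | 20 => 2
  | _ => 0

theorem deg_cases {d : ℕ} {v : ℤ} (hd : d ∣ 720) (hd1 : d ≠ 1) (hd2 : d ≠ 2) (h26 : d ≤ 26)
    (hv : (d : ℤ) ≡ v [ZMOD 9]) (hv1 : -2 ≤ v) (hv2 : v ≤ 2) : d ∈ Ks ∧ v = wt d := by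
  unfold Int.ModEq at hv
  have h0 : d ≠ 0 := by rintro rfl; norm_num at hd
  interval_cases v <;> interval_cases d <;> first | omega | (exfalso; revert hd; decide) | decide

variable {I : Type*} [Fintype I]

theorem sum_by (d : I → ℕ) (hd : ∀ i, d i ∈ Ks) (F : ℕ → ℤ) :
    ∑ i, F (d i) = ∑ k ∈ Ks, ((Finset.univ.filter fun i => d i = k).card : ℤ) * F k := by
  rw [← Finset.sum_fiberwise_of_maps_to (s := Finset.univ) (t := Ks) (g := d) (fun i _ => hd i)]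
  refine Finset.sum_congr rfl fun k _ => ?_
  rw [Finset.sum_congr rfl (g := fun _ => F k) (fun i hi => by rw [(Finset.mem_filter.1 hi).2]), Finset.sum_const,
    nsmul_eq_mul]

theorem sum_Ks (f : ℕ → ℤ) : ∑ k ∈ Ks, f k = f 1 + f 8 + f 9 + f 10 + f 16 + f 18 + f 20 := by
  unfold Ks
  rw [Finset.sum_insert (by decide), Finset.sum_insert (by decide), Finset.sum_insert (by decide),
    Finset.sum_insert (by decide), Finset.sum_insert (by decide), Finset.sum_insert (by decide),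
    Finset.sum_singleton]
  ring

theorem arith_Ks (n8 n9 n10 n16 n18 n20 m : ℕ)
    (t1 : (720 : ℤ) = ((2 : ℕ) : ℤ) * ((1 : ℕ) : ℤ) ^ 2 + (n8 : ℤ) * ((8 : ℕ) : ℤ) ^ 2 + (n9 : ℤ) * ((9 : ℕ) : ℤ) ^ 2 +
      (n10 : ℤ) * ((10 : ℕ) : ℤ) ^ 2 + (n16 : ℤ) * ((16 : ℕ) : ℤ) ^ 2 + (n18 : ℤ) * ((18 : ℕ) : ℤ) ^ 2 +
      (n20 : ℤ) * ((20 : ℕ) : ℤ) ^ 2)
    (t2 : (9 : ℤ) = ((2 : ℕ) : ℤ) * wt 1 ^ 2 + (n8 : ℤ) * wt 8 ^ 2 + (n9 : ℤ) * wt 9 ^ 2 +
      (n10 : ℤ) * wt 10 ^ 2 + (n16 : ℤ) * wt 16 ^ 2 + (n18 : ℤ) * wt 18 ^ 2 + (n20 : ℤ) * wt 20 ^ 2)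
    (t3 : (0 : ℤ) = ((2 : ℕ) : ℤ) * (((1 : ℕ) : ℤ) * wt 1) + (n8 : ℤ) * (((8 : ℕ) : ℤ) * wt 8) +
      (n9 : ℤ) * (((9 : ℕ) : ℤ) * wt 9) + (n10 : ℤ) * (((10 : ℕ) : ℤ) * wt 10) +
      (n16 : ℤ) * (((16 : ℕ) : ℤ) * wt 16) + (n18 : ℤ) * (((18 : ℕ) : ℤ) * wt 18) +
      (n20 : ℤ) * (((20 : ℕ) : ℤ) * wt 20))
    (t4 : (m : ℤ) = ((2 : ℕ) : ℤ) * (if 5 ∣ 1 then (0 : ℤ) else 1) + (n8 : ℤ) * (if 5 ∣ 8 then (0 : ℤ) else 1) +
      (n9 : ℤ) * (if 5 ∣ 9 then (0 : ℤ) else 1) + (n10 : ℤ) * (if 5 ∣ 10 then (0 : ℤ) else 1) +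
      (n16 : ℤ) * (if 5 ∣ 16 then (0 : ℤ) else 1) + (n18 : ℤ) * (if 5 ∣ 18 then (0 : ℤ) else 1) +
      (n20 : ℤ) * (if 5 ∣ 20 then (0 : ℤ) else 1)) :
    n18 = 0 ∧ n20 = 0 ∧ ((n16 = 0 ∧ 8 ≤ m) ∨ n16 = 1) := by
  simp only [wt] at t2 t3
  norm_num at t1 t2 t3 t4
  refine ⟨by omega, by omega, by omega⟩

/-- the counting argument -/
theorem counts (d : I → ℕ) (v : I → ℤ) (hdvd : ∀ i, d i ∣ 720) (h2 : ∀ i, d i ≠ 2)
    (hmod : ∀ i, (d i : ℤ) ≡ v i [ZMOD 9]) (h1 : (Finset.univ.filter fun i => d i = 1).card = 2)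
    (hv1 : ∀ i, d i = 1 → v i = 1) (s1 : ∑ i, (d i : ℤ) ^ 2 = 720) (s2 : ∑ i, v i ^ 2 = 9)
    (s3 : ∑ i, (d i : ℤ) * v i = 0) :
    (∀ i, d i = 1 ∨ d i = 8 ∨ d i = 9 ∨ d i = 10 ∨ d i = 16) ∧
    (((Finset.univ.filter fun i => d i = 16).card = 0 ∧ 8 ≤ (Finset.univ.filter fun i => ¬ 5 ∣ d i).card) ∨
      (Finset.univ.filter fun i => d i = 16).card = 1) := by
  classical
  have h26 : ∀ i, d i ≤ 26 := by
    intro i
    have h3 : (d i : ℤ) ^ 2 ≤ 720 := by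
      rw [← s1]
      exact Finset.single_le_sum (f := fun i => (d i : ℤ) ^ 2) (fun i _ => sq_nonneg _) (Finset.mem_univ i)
    have h4 : (d i : ℤ) ≤ 26 := by nlinarith
    exact_mod_cast h4
  have hall : ∀ i, d i ∈ Ks ∧ v i = wt (d i) := by
    intro i
    by_cases hi : d i = 1
    · rw [hi, hv1 i hi]
      decide
    · have h3 : v i ^ 2 + 2 ≤ 9 := by
        have h4 : ∑ j ∈ insert i (Finset.univ.filter fun j => d j = 1), v j ^ 2 ≤ 9 := by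
          rw [← s2]
          exact Finset.sum_le_sum_of_subset_of_nonneg (Finset.subset_univ _) (fun j _ _ => sq_nonneg _)
        rw [Finset.sum_insert (by simp [hi])] at h4
        have h5 : ∑ j ∈ Finset.univ.filter (fun j => d j = 1), v j ^ 2 = 2 := by
          rw [Finset.sum_congr rfl (g := fun _ => (1 : ℤ)) (fun j hj => by
            rw [hv1 j (Finset.mem_filter.1 hj).2]; norm_num), Finset.sum_const, h1]
          norm_num
        omega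
      have h4 : -2 ≤ v i := by nlinarith
      have h5 : v i ≤ 2 := by nlinarith
      exact deg_cases (hdvd i) hi (h2 i) (h26 i) (hmod i) h4 h5
  have hK := fun i => (hall i).1
  have t1 : ∑ i, (d i : ℤ) ^ 2 = _ := sum_by d hK (fun k => (k : ℤ) ^ 2)
  have t2 : ∑ i, v i ^ 2 = _ := (Finset.sum_congr rfl fun i _ => by rw [(hall i).2]).trans
    (sum_by d hK (fun k => wt k ^ 2))
  have t3 : ∑ i, (d i : ℤ) * v i = _ := (Finset.sum_congr rfl fun i _ => by rw [(hall i).2]).trans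
    (sum_by d hK (fun k => (k : ℤ) * wt k))
  have t4 : ((Finset.univ.filter fun i => ¬ 5 ∣ d i).card : ℤ) =
      ∑ k ∈ Ks, ((Finset.univ.filter fun i => d i = k).card : ℤ) * (if 5 ∣ k then (0 : ℤ) else 1) := by
    have h3 : ((Finset.univ.filter fun i => ¬ 5 ∣ d i).card : ℤ) = ∑ i, (if 5 ∣ d i then (0 : ℤ) else 1) := by
      rw [Finset.card_filter]
      push_cast
      refine Finset.sum_congr rfl fun i _ => ?_
      split_ifs <;> simp_all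
    exact h3.trans (sum_by d hK (fun k => if 5 ∣ k then (0 : ℤ) else 1))
  rw [s1] at t1
  rw [s2] at t2
  rw [s3] at t3
  rw [sum_Ks] at t1 t2 t3 t4
  rw [h1] at t1 t2 t3 t4
  obtain ⟨k18, k20, kk⟩ := arith_Ks _ _ _ _ _ _ _ t1 t2 t3 t4
  refine ⟨fun i => ?_, kk⟩
  have h3 := hK i
  simp only [Ks, Finset.mem_insert, Finset.mem_singleton] at h3
  have h18 : d i ≠ 18 := fun h => by
    have := Finset.card_eq_zero.1 k18
    have h4 : i ∈ (Finset.univ.filter fun i => d i = 18) := Finset.mem_filter.2 ⟨Finset.mem_univ _, h⟩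
    rw [this] at h4
    exact absurd h4 (Finset.notMem_empty _)
  have h20 : d i ≠ 20 := fun h => by
    have := Finset.card_eq_zero.1 k20
    have h4 : i ∈ (Finset.univ.filter fun i => d i = 20) := Finset.mem_filter.2 ⟨Finset.mem_univ _, h⟩
    rw [this] at h4
    exact absurd h4 (Finset.notMem_empty _)
  omega

end Cfsg.Agent.H600.SixRow
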